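import Mathlib
import Cfsg.Agent.Lib.Helper22.Iso.Defs
import Cfsg.Agent.Lib.Helper55.Cores
import Cfsg.Agent.Lib.Helper63.HallHigman

/-!
# ISO (S3044 + S3045), package PkgK3 (helper21): the key lemma
-/

set_option autoImplicit false

namespace Cfsg.Agent.Lib.Helper21.Iso

open Cfsg.Agent.Lib.Helper22.Iso

universe u

section aux

variable {G : Type u} [Group G]

theorem k3_le_normalizer_of_normal (N : Subgroup G) (hN : N.Normal) (H : Subgroup G) :
    H ≤ Subgroup.normalizer (N : Set G) := by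
  intro s _
  rw [Subgroup.mem_normalizer_iff]
  intro h
  constructor
  · intro hh
    exact hN.conj_mem h hh s
  · intro hh
    have h1 := hN.conj_mem _ hh s⁻¹
    have h2 : s⁻¹ * (s * h * s⁻¹) * s⁻¹⁻¹ = h := by group
    rw [h2] at h1
    exact h1

theorem k3_le_normalizer_inf (P K : Subgroup G) (hK : K.Normal) :
    P ≤ Subgroup.normalizer ((P ⊓ K : Subgroup G) : Set G) := by
  intro x hx
  rw [Subgroup.mem_normalizer_iff]
  intro h
  constructor
  · rintro ⟨h1, h2⟩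
    exact ⟨P.mul_mem (P.mul_mem hx h1) (P.inv_mem hx), hK.conj_mem h h2 x⟩
  · rintro ⟨h1, h2⟩
    have e : h = x⁻¹ * (x * h * x⁻¹) * x := by group
    refine ⟨?_, ?_⟩
    · rw [e]
      exact P.mul_mem (P.mul_mem (P.inv_mem hx) h1) hx
    · have h3 := hK.conj_mem _ h2 x⁻¹
      have h4 : x⁻¹ * (x * h * x⁻¹) * x⁻¹⁻¹ = h := by group
      rw [h4] at h3
      exact h3

/-- A `p`-subgroup `K ≤ H` normalized by `H` lies in `O_p(H)`. -/
theorem k3_le_opOf {p : ℕ} [Fact p.Prime] (H K : Subgroup G) (hKH : K ≤ H) (hK : IsPGroup p K)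
    (hnorm : ∀ h ∈ H, ∀ k ∈ K, h * k * h⁻¹ ∈ K) : K ≤ opOf p H := by
  have hn : (K.subgroupOf H).Normal := by
    refine ⟨fun x hx g => ?_⟩
    rw [Subgroup.mem_subgroupOf] at hx ⊢
    exact hnorm g.1 g.2 x.1 hx
  have hp : IsPGroup p (K.subgroupOf H) := hK.comap_subtype
  have hle : K.subgroupOf H ≤ Cfsg.pCore p ↥H := Cfsg.Agent.Lib.Helper55.le_pCore hn hp
  intro k hk
  exact ⟨⟨k, hKH hk⟩, hle (show (⟨k, hKH hk⟩ : ↥H) ∈ K.subgroupOf H from hk), rfl⟩

/-- `O_p(N) ≤ O_p(G)` for `N ⊴ G`. -/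
theorem k3_opOf_normal_le {p : ℕ} [Fact p.Prime] (N : Subgroup G) (hN : N.Normal) :
    opOf p N ≤ Cfsg.pCore p G := by
  haveI := hN
  haveI : (Cfsg.pCore p ↥N).Characteristic :=
    Cfsg.Agent.Lib.Helper63.pCore_characteristic' p ↥N
  have hnorm : ((Cfsg.pCore p ↥N).map N.subtype).Normal :=
    ConjAct.normal_of_characteristic_of_normal
  exact Cfsg.Agent.Lib.Helper55.le_pCore hnorm
    ((Cfsg.Agent.Lib.Helper55.pCore_isPGroup p ↥N).map N.subtype)

end aux

/-- PkgK3 (key lemma), from PkgPmin, PkgK1, PkgK2. -/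
theorem pkgK3 (hPmin : PkgPmin.{u}) (hK1 : PkgK1.{u}) (hK2 : PkgK2.{u}) : PkgK3.{u} := by
  intro G _ _ p _ S P L Y hset
  have k1 := hK1 S P L Y hset
  have k2 := hK2 S P L Y hset
  refine ⟨?_⟩
  intro N hN hNY hne
  have hTN : ¬ resid p P ≤ N := fun h => hne (le_antisymm hNY (k1.ncl N hN h))
  have hNL : N ≤ L := k2.inv N (k3_le_normalizer_of_normal N hN _) hTN
  refine ⟨hNL, ?_⟩
  -- notation
  have hQp : IsPGroup p (opOf p L) :=
    (Cfsg.Agent.Lib.Helper55.pCore_isPGroup p ↥L).map L.subtype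
  have hRn : (Cfsg.pCore p G).Normal :=
    @Subgroup.normal_of_characteristic _ _ _ (Cfsg.Agent.Lib.Helper63.pCore_characteristic' p G)
  have hRp : IsPGroup p (Cfsg.pCore p G) := Cfsg.Agent.Lib.Helper55.pCore_isPGroup p G
  -- (c) N ⊓ Q ≤ R
  have hNQ : N ⊓ opOf p L ≤ Cfsg.pCore p G := by
    have h1 : N ⊓ opOf p L ≤ opOf p N := by
      apply k3_le_opOf N (N ⊓ opOf p L) inf_le_left (hQp.to_le inf_le_right)
      intro h hh k hk
      refine ⟨N.mul_mem (N.mul_mem hh hk.1) (N.inv_mem hh), ?_⟩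
      have h2 := k1.LQ (hNL hh)
      rw [Subgroup.mem_normalizer_iff] at h2
      exact (h2 k).1 hk.2
    exact h1.trans (k3_opOf_normal_le N hN)
  -- commutators of N and Q lie in R
  have hcomm : ∀ n ∈ N, ∀ q ∈ opOf p L, n * q * n⁻¹ * q⁻¹ ∈ Cfsg.pCore p G := by
    intro n hn q hq
    apply hNQ
    refine ⟨?_, ?_⟩
    · have h1 : q * n⁻¹ * q⁻¹ ∈ N := hN.conj_mem _ (N.inv_mem hn) q
      have h2 : n * q * n⁻¹ * q⁻¹ = n * (q * n⁻¹ * q⁻¹) := by group
      rw [h2]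
      exact N.mul_mem hn h1
    · have h2 := k1.LQ (hNL hn)
      rw [Subgroup.mem_normalizer_iff] at h2
      exact Subgroup.mul_mem _ ((h2 q).1 hq) (Subgroup.inv_mem _ hq)
  -- (d) Y ≤ normalClosure Q
  have hTQ : resid p P ≤ Subgroup.normalClosure ((opOf p L : Subgroup G) : Set G) := by
    by_contra hcon
    apply hset.hiso
    have hnot : ¬ resid p P ≤ P ⊓ Subgroup.normalClosure ((opOf p L : Subgroup G) : Set G) :=
      fun h => hcon (h.trans inf_le_right)
    have h1 := hPmin S P hset.hSP hset.hPmin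
      (P ⊓ Subgroup.normalClosure ((opOf p L : Subgroup G) : Set G)) inf_le_left
      (k3_le_normalizer_inf P _ Subgroup.normalClosure_normal) hnot
    intro q hq
    apply h1
    exact ⟨⟨hset.hSP (k1.QS hq), Subgroup.le_normalClosure hq⟩, k1.QS hq⟩
  have hYQ : Y ≤ Subgroup.normalClosure ((opOf p L : Subgroup G) : Set G) := by
    rw [hset.hY]
    exact Subgroup.normalClosure_le_normal hTQ
  have hYn : Y.Normal := by
    rw [hset.hY]
    exact Subgroup.normalClosure_normal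
  -- (e) the centralizer of N modulo R
  have := hRn
  have : (N.map (QuotientGroup.mk' (Cfsg.pCore p G))).Normal :=
    Subgroup.Normal.map hN _ (QuotientGroup.mk'_surjective _)
  have hCn : ((Subgroup.centralizer
      ((N.map (QuotientGroup.mk' (Cfsg.pCore p G)) : Subgroup (G ⧸ Cfsg.pCore p G)) :
        Set (G ⧸ Cfsg.pCore p G))).comap (QuotientGroup.mk' (Cfsg.pCore p G))).Normal :=
    Subgroup.Normal.comap Subgroup.normal_centralizer _
  have hQC : ((opOf p L : Subgroup G) : Set G) ⊆ ((Subgroup.centralizer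
      ((N.map (QuotientGroup.mk' (Cfsg.pCore p G)) : Subgroup (G ⧸ Cfsg.pCore p G)) :
        Set (G ⧸ Cfsg.pCore p G))).comap (QuotientGroup.mk' (Cfsg.pCore p G)) : Subgroup G) := by
    intro q hq
    rw [SetLike.mem_coe, Subgroup.mem_comap, Subgroup.mem_centralizer_iff]
    rintro _ ⟨n, hn, rfl⟩
    have h1 := hcomm n hn q hq
    have h2 : (QuotientGroup.mk' (Cfsg.pCore p G)) (n * q * n⁻¹ * q⁻¹) = 1 :=
      (QuotientGroup.eq_one_iff _).2 h1
    rw [map_mul, map_mul, map_mul, map_inv, map_inv] at h2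
    have h3 := mul_inv_eq_one.1 h2
    have h4 := mul_inv_eq_iff_eq_mul.1 h3
    exact h4
  have hYC := hYQ.trans (@Subgroup.normalClosure_le_normal _ _ _ _ hCn hQC)
  -- conclusion
  have hcommY : ∀ n ∈ N, ∀ y ∈ Y, n * y * n⁻¹ * y⁻¹ ∈ Cfsg.pCore p G := by
    intro n hn y hy
    have h1 := hYC hy
    rw [Subgroup.mem_comap, Subgroup.mem_centralizer_iff] at h1
    have h2 := h1 _ (Subgroup.mem_map_of_mem _ hn)
    rw [← QuotientGroup.eq_one_iff (N := Cfsg.pCore p G)]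
    have h3 : ((n * y * n⁻¹ * y⁻¹ : G) : G ⧸ Cfsg.pCore p G) =
        (QuotientGroup.mk' (Cfsg.pCore p G)) n * (QuotientGroup.mk' (Cfsg.pCore p G)) y *
          ((QuotientGroup.mk' (Cfsg.pCore p G)) n)⁻¹ * ((QuotientGroup.mk' (Cfsg.pCore p G)) y)⁻¹ := rfl
    rw [h3, h2]
    group
  have hRY : Cfsg.pCore p G ⊓ Y ≤ opOf p Y := by
    apply k3_le_opOf Y _ inf_le_right (hRp.to_le inf_le_left)
    intro h _ k hk
    exact ⟨hRn.conj_mem k hk.1 h, hYn.conj_mem k hk.2 h⟩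
  rw [Subgroup.commutator_le]
  intro n hn y hy
  apply hRY
  refine ⟨hcommY n hn y hy, ?_⟩
  have h1 : n * y * n⁻¹ ∈ Y := hYn.conj_mem y hy n
  exact Y.mul_mem h1 (Y.inv_mem hy)

end Cfsg.Agent.Lib.Helper21.Iso
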